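import Cfsg.Agent.H201.O8.Out
import Cfsg.Agent.H935.OreO8.Gen

/-!
# Every element `≠ 1` of `Ω₈⁺(2)` is the commutator of a generating pair
-/

set_option autoImplicit false

namespace Cfsg.Agent.H201.O8

open Cfsg.Agent.StdO8.Model Cfsg.Agent.StdO8.Code Cfsg.Agent.H612.Ore

theorem reps_data : reps.take 39 = Cfsg.Agent.H935.OreO8.data.map (·.c) := by decide +kernel

theorem col_eq : ∀ c i : ℕ, col 8 c i = (c >>> (8 * i)) % 2 ^ 8 := fun _ _ => rfl

/-- every `x ≠ 1` is the commutator of a generating pair -/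
theorem good_all {x : Om} (hx : x ≠ 1) : Cfsg.Agent.H935.OreO8.Good x := by
  obtain ⟨c, hc, h, y, hy, rfl⟩ := coverOm' hx
  rw [reps_data] at hc
  obtain ⟨d, hd, rfl⟩ := List.mem_map.1 hc
  exact (Cfsg.Agent.H935.OreO8.good_of_code hd hy).conj h

end Cfsg.Agent.H201.O8
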