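import Cfsg.Agent.H201.O8.Cover
import Cfsg.Agent.StdO8.Aut

/-!
# The classes outside `Ω₈⁺(2)`

* `outs` : the representatives `reps[40], ..., reps[66]` are products of a word with the reflection in `dec 136`;
* `notMem_of_rep` : no isometry with such a code lies in `Om`;
* `coverOm` : every element of `Om` is conjugate in `O8` to an element of `Om` with one of the first forty codes;
* `coverOm'` : every `x ≠ 1` in `Om` is conjugate to an element of `Om` with one of the first 39 codes.
-/

set_option autoImplicit false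

namespace Cfsg.Agent.H201.O8

open Cfsg.Agent.StdO8.Model Cfsg.Agent.StdO8.Code Cfsg.Agent.StdO8.Gen Cfsg.Agent.H612.Ore
open Cfsg.Agent.LieClassical.OrthCore (refl)

/-- codes of the outer classes with words -/
def outs : List (ℕ × List (ℕ × ℕ)) := [
  (9241421624165794320, [(153,17)]),
  (9531903800131191312, [(4,8),(153,17)]),
  (4665764402824741392, [(157,17),(128,68)]),
  (5245602854848692752, [(93,17),(12,192)]),
  (5245602857872261648, [(157,17),(64,136)]),
  (4791869590303408656, [(4,27),(85,145),(64,25)]),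
  (577626241075642896, [(2,64),(87,17)]),
  (5390285393981735440, [(204,70),(159,17)]),
  (2350949378694841360, [(185,17),(72,164),(40,138)]),
  (579345877796127760, [(6,123),(85,25),(66,27)]),
  (2931385967562458128, [(117,17),(36,206),(32,140)]),
  (9241439224941773328, [(153,17),(1,2)]),
  (9531921400907170320, [(2,141),(4,8),(153,19)]),
  (4665782003600720400, [(16,198),(28,200),(157,17)]),
  (5245620455624671760, [(146,77),(193,79),(66,145)]),
  (5245620458648240656, [(3,5),(80,23),(4,139)]),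
  (5390302994757714448, [(2,137),(6,136),(219,19)]),
  (9242079140709270032, [(155,17),(2,205)]),
  (9236953217500316688, [(235,99),(96,23),(5,112)]),
  (9419911952395797520, [(252,21),(2,152),(255,119)]),
  (3508427268144235536, [(9,99),(234,57),(104,47),(125,162)]),
  (4087649996377162768, [(4,152),(52,217),(37,23)]),
  (580524563120522256, [(37,78),(40,89),(11,115)]),
  (4088828672842138640, [(6,248),(217,17),(2,65)]),
  (918736536966017040, [(97,53),(225,71),(56,64),(80,146)]),
  (932251734699946000, [(115,139),(6,226),(51,21),(208,108)]),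
  (4665782209759154704, [(12,246),(13,144),(129,62)])]

/-- the code is the code of a word times a reflection -/
def chkO (p : ℕ × List (ℕ × ℕ)) : Bool :=
  p.2.all ok && (List.range 8).all fun i => ev p.2 (2 ^ i ^^^ (if Bn 136 (2 ^ i) then 136 else 0)) == col 8 p.1 i

theorem chkO_outs : outs.all chkO = true := by decide +kernel

theorem reps_split : reps = reps.take 39 ++ 9241421688590303745 :: outs.map Prod.fst := by decide +kernel

/-- a code of the table is the value on the basis -/
theorem rep_dec {x : O8} {c : ℕ} (h : act8.Rep x c) {i : ℕ} (hi : i < 8) :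
    (x : V ≃ₗ[ZMod 2] V) (dec (2 ^ i)) = dec (col 8 c i) := by
  have h1 : cd ((x : V ≃ₗ[ZMod 2] V) (dec (2 ^ i))) = col 8 c i := h i hi
  rw [← h1, dec_cd]

theorem notMem_of_rep {p : ℕ × List (ℕ × ℕ)} (hp : p ∈ outs) {x : O8} (hx : act8.Rep x p.1) :
    (x : V ≃ₗ[ZMod 2] V) ∉ Om := by
  intro h
  have h1 := List.all_eq_true.1 chkO_outs p hp
  rw [chkO, Bool.and_eq_true] at h1
  obtain ⟨h2, h3⟩ := h1
  have h4 : (x : V ≃ₗ[ZMod 2] V) = (word p.2 : Om) * refl q (dec 136) q136 := by
    apply lin_ext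
    intro b hb
    obtain ⟨i, hi, rfl⟩ := mem_basis hb
    rw [rep_dec hx hi, ← eq_of_beq (List.all_eq_true.1 h3 i (List.mem_range.2 hi))]
    show _ = ((word p.2 : Om) : V ≃ₗ[ZMod 2] V) (refl q (dec 136) q136 (dec (2 ^ i)))
    rw [refl_dec, word_dec h2]
  have h5 : refl q (dec 136) q136 = ((word p.2 : Om) : V ≃ₗ[ZMod 2] V)⁻¹ * (x : V ≃ₗ[ZMod 2] V) := by
    rw [h4, inv_mul_cancel_left]
  apply refl_notMem (dec 136) q136
  rw [h5]
  exact mul_mem (inv_mem (word p.2).2) h

/-- every element of `Om` is conjugate in `O8` to an element with one of the first forty codes -/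
theorem coverOm (x : Om) : ∃ c ∈ reps.take 39 ++ [9241421688590303745], ∃ (h : O8) (y : Om),
    (∀ i < 8, (y : V ≃ₗ[ZMod 2] V) (dec (2 ^ i)) = dec (col 8 c i)) ∧ x = Cfsg.Agent.StdO8.Aut.cj h y := by
  obtain ⟨c, hc, h, y, hy, e⟩ := cover ⟨x, Om_le x.2⟩
  have e' : (x : V ≃ₗ[ZMod 2] V) = (h : V ≃ₗ[ZMod 2] V) * y * (h : V ≃ₗ[ZMod 2] V)⁻¹ := congrArg Subtype.val e
  have hyO : (y : V ≃ₗ[ZMod 2] V) ∈ Om := by
    have h1 := (Cfsg.Agent.StdO8.Aut.cj h⁻¹ x).2
    rw [Cfsg.Agent.StdO8.Aut.cj_coe, e', Subgroup.coe_inv] at h1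
    have h2 : (h : V ≃ₗ[ZMod 2] V)⁻¹ * (h * y * (h : V ≃ₗ[ZMod 2] V)⁻¹) * ((h : V ≃ₗ[ZMod 2] V)⁻¹)⁻¹ = y := by group
    rwa [h2] at h1
  refine ⟨c, ?_, h, ⟨y, hyO⟩, fun i hi => rep_dec hy hi, Subtype.ext e'⟩
  rw [reps_split, List.mem_append, List.mem_cons] at hc
  rw [List.mem_append, List.mem_singleton]
  rcases hc with hc | hc | hc
  · exact Or.inl hc
  · exact Or.inr hc
  · obtain ⟨p, hp, rfl⟩ := List.mem_map.1 hc
    exact absurd hyO (notMem_of_rep hp hy)

theorem id_code : ∀ i < 8, col 8 9241421688590303745 i = 2 ^ i := by decide +kernel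

/-- every `x ≠ 1` in `Om` is conjugate in `O8` to an element with one of the first 39 codes -/
theorem coverOm' {x : Om} (hx : x ≠ 1) : ∃ c ∈ reps.take 39, ∃ (h : O8) (y : Om),
    (∀ i < 8, (y : V ≃ₗ[ZMod 2] V) (dec (2 ^ i)) = dec (col 8 c i)) ∧ x = Cfsg.Agent.StdO8.Aut.cj h y := by
  obtain ⟨c, hc, h, y, hy, e⟩ := coverOm x
  rw [List.mem_append, List.mem_singleton] at hc
  rcases hc with hc | rfl
  · exact ⟨c, hc, h, y, hy, e⟩
  · exfalso
    apply hx
    have h1 : y = 1 := by
      apply Subtype.ext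
      apply lin_ext
      intro b hb
      obtain ⟨i, hi, rfl⟩ := mem_basis hb
      rw [hy i hi, id_code i hi]
      rfl
    rw [e, h1, map_one]

end Cfsg.Agent.H201.O8
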